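import Cfsg.Agent.H399.IF.Tools
import Cfsg.Agent.H968.TwoM22Fact
import Cfsg.Agent.H672.OZ.Full
import Cfsg.Agent.H399.OZ.Dat

/-!
# S5719: kernel tools for the subgroups of `M₂₄` (helper399)

* `count_of` : a list of involutions which are products of two elements of prime order `p > f(t)` of `C(t)`;
* `elab_of` : an elementary abelian subgroup of `C(t)`.
-/

set_option autoImplicit false
set_option linter.unusedSectionVars false

namespace Cfsg.Agent.H399.IF

open Cfsg Subgroup Cfsg.Agent.H209.Fxy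
open Cfsg.Agent.SporadicA.GolayBase Cfsg.Agent.SporadicA.GolayPerm
open Cfsg.Agent.SporadicStructure.M24El Cfsg.Agent.H729.Trans Cfsg.Agent.H729.MData Cfsg.Agent.H729.Count
open Cfsg.Agent.H729.M24Deg
open Cfsg.Agent.H968.TwoM22 (el_inj)

/-- a group embedded in `M₂₄`; `me` : a test of membership of a packed permutation -/
structure Emb {G : Type*} [Group G] (φ : G →* M24) (me : ℕ → Bool) : Prop where
  inj : Function.Injective φ
  ex : ∀ c : ℕ, ok c = true → me c = true → ∃ x : G, φ x = el c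

/-- the test of a pair of elements of order `p` whose product is an involution -/
def okPair (me : ℕ → Bool) (p c0 : ℕ) (xy : ℕ × ℕ) : Bool :=
  (ok xy.1 && (me xy.1 && (Nat.beq (pcomp xy.1 c0) (pcomp c0 xy.1) && Nat.beq (ppow xy.1 p) idP))) &&
  ((ok xy.2 && (me xy.2 && (Nat.beq (pcomp xy.2 c0) (pcomp c0 xy.2) && Nat.beq (ppow xy.2 p) idP))) &&
  (Nat.beq (pcomp (pcomp xy.1 xy.2) (pcomp xy.1 xy.2)) idP &&
    (!(Nat.beq (pcomp xy.1 xy.2) idP) && (Nat.beq (pcomp (pcomp xy.1 xy.2) idP) (pcomp xy.1 xy.2) &&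
      (List.range 24).any fun i => Nat.beq (papp (pcomp xy.1 xy.2) i) i))))

theorem canP : Nat.beq (pcomp idP idP) idP = true := by decide +kernel

section

variable {G : Type*} [Group G] {φ : G →* M24} {me : ℕ → Bool}

theorem im_el {x : G} {P : ℕ} (hP : ok P = true) (hx : φ x = el P) {i : ℕ} (hi : i < 24) : im (φ x) i = papp P i := by
  have h1 := idx_el_smul hP (pt i)
  rw [idx_pt hi] at h1
  rw [hx, ← h1]
  rfl

theorem mul_comm_of (E : Emb φ me) {x y : G} {P Q : ℕ} (hP : ok P = true) (hQ : ok Q = true) (hx : φ x = el P)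
    (hy : φ y = el Q) (h : Nat.beq (pcomp P Q) (pcomp Q P) = true) : x * y = y * x := by
  apply E.inj
  rw [map_mul, map_mul, hx, hy, ← el_pcomp hP hQ, ← el_pcomp hQ hP, Nat.eq_of_beq_eq_true h]

theorem pow_one_of (E : Emb φ me) {x : G} {P p : ℕ} (hP : ok P = true) (hx : φ x = el P)
    (h : Nat.beq (ppow P p) idP = true) : x ^ p = 1 := by
  apply E.inj
  rw [map_pow, map_one, hx, ← el_ppow hP, Nat.eq_of_beq_eq_true h, el_idP]

theorem ne_one_of {x : G} {P : ℕ} (hP : ok P = true) (hx : φ x = el P) (hcan : Nat.beq (pcomp P idP) P = true)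
    (hne : Nat.beq P idP = false) : x ≠ 1 := by
  rintro rfl
  rw [map_one, ← el_idP] at hx
  have h1 := el_inj ok_idP hP canP hcan hx
  rw [← h1, Nat.beq_refl] at hne
  exact Bool.noConfusion hne

/-- **Many conjugates in `A`.** -/
theorem count_of [Finite G] [IsSimpleGroup G] (E : Emb φ me) {t0 : G} {c0 : ℕ} (ht0 : φ t0 = el c0) (hc0 : ok c0 = true)
    {p : ℕ} (hp : p.Prime) {L : List (ℕ × ℕ)} (hL : L.all (okPair me p c0) = true)
    (hnd : (L.map fun xy => pcomp xy.1 xy.2).Nodup)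
    (hcl : ∀ z : G, z * z = 1 → z ≠ 1 → (∃ i < 24, im (φ z) i = i) → IsConj t0 z)
    {A : Subgroup G} {Γ : Subgroup (MulAut G)} (h : IF A Γ) (hna : ∃ a b : G, a * b ≠ b * a) {t : G} (ht : t ∈ A)
    (h2 : orderOf t = 2) (hc : IsConj t0 t) (hf : ff A t < p) : L.length ≤ kk A t := by
  classical
  obtain ⟨g, hg⟩ := isConj_iff.1 hc
  set M := (L.map fun xy => pcomp xy.1 xy.2).toFinset with hM
  have key : ∀ z : M, ∃ w : G, φ (g⁻¹ * w * g) = el z.1 ∧ (ok z.1 = true ∧ Nat.beq (pcomp z.1 idP) z.1 = true) ∧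
      w ∈ A ∧ IsConj t w := by
    rintro ⟨z, hz⟩
    rw [hM, List.mem_toFinset, List.mem_map] at hz
    obtain ⟨⟨P, Q⟩, hPQ, rfl⟩ := hz
    have h1 := List.all_eq_true.1 hL _ hPQ
    simp only [okPair, Bool.and_eq_true] at h1
    obtain ⟨⟨p1, p2, p3, p4⟩, ⟨q1, q2, q3, q4⟩, r1, r2, r3, r4⟩ := h1
    obtain ⟨X, hX⟩ := E.ex P p1 p2
    obtain ⟨Y, hY⟩ := E.ex Q q1 q2
    have hXt := mul_comm_of E p1 hc0 hX ht0 p3
    have hYt := mul_comm_of E q1 hc0 hY ht0 q3
    have hXp := pow_one_of E p1 hX p4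
    have hYp := pow_one_of E q1 hY q4
    have hZ : φ (X * Y) = el (pcomp P Q) := by rw [map_mul, hX, hY, ← el_pcomp p1 q1]
    have hmem : ∀ {x : G}, x * t0 = t0 * x → x ^ p = 1 → g * x * g⁻¹ ∈ A := by
      intro x hx hxp
      refine mem_of_prime h hna ht h2 hp hf ?_ ?_
      · rw [← hg]
        calc g * x * g⁻¹ * (g * t0 * g⁻¹) = g * (x * t0) * g⁻¹ := by group
          _ = g * (t0 * x) * g⁻¹ := by rw [hx]
          _ = _ := by group
      · rw [conj_pow, hxp]
        group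
    have hZA : g * (X * Y) * g⁻¹ ∈ A := by
      have h3 := A.mul_mem (hmem hXt hXp) (hmem hYt hYp)
      have h4 : g * X * g⁻¹ * (g * Y * g⁻¹) = g * (X * Y) * g⁻¹ := by group
      rwa [h4] at h3
    have okz := ok_pcomp p1 q1
    have hZZ : X * Y * (X * Y) = 1 := by
      apply E.inj
      rw [map_mul, map_one, hZ, ← el_pcomp okz okz, Nat.eq_of_beq_eq_true r1, el_idP]
    rw [Bool.not_eq_true'] at r2
    have hZ1 : X * Y ≠ 1 := ne_one_of okz hZ r3 r2
    obtain ⟨i, hi, hfix⟩ := List.any_eq_true.1 r4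
    have hZc := hcl (X * Y) hZZ hZ1 ⟨i, List.mem_range.1 hi, by
      rw [im_el okz hZ (List.mem_range.1 hi)]
      exact Nat.eq_of_beq_eq_true hfix⟩
    refine ⟨g * (X * Y) * g⁻¹, ?_, ⟨okz, r3⟩, hZA, hc.symm.trans (hZc.trans (isConj_iff.2 ⟨g, rfl⟩))⟩
    rw [show g⁻¹ * (g * (X * Y) * g⁻¹) * g = X * Y by group, hZ]
  choose w hw1 hw2 hw3 hw4 using key
  have hinj : Function.Injective w := by
    intro a b hab
    have h1 : el a.1 = el b.1 := by rw [← hw1, ← hw1, hab]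
    exact Subtype.ext (el_inj (hw2 a).1 (hw2 b).1 (hw2 a).2 (hw2 b).2 h1)
  have h3 := le_kk A (t := t) (Finset.univ.image w) (fun s hs => by
    obtain ⟨a, -, rfl⟩ := Finset.mem_image.1 hs
    exact ⟨hw3 a, hw4 a⟩)
  rw [Finset.card_image_of_injective _ hinj, Finset.card_univ, Fintype.card_coe, hM,
    List.toFinset_card_of_nodup hnd, List.length_map] at h3
  exact h3

/-- the test of an elementary abelian group centralizing `c0` -/
def okElab (me : ℕ → Bool) (c0 : ℕ) (L : List ℕ) : Bool :=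
  (L.all fun P => ok P && (me P && (Nat.beq (pcomp P P) idP && (Nat.beq (pcomp P idP) P &&
    Nat.beq (pcomp P c0) (pcomp c0 P))))) &&
  ((L.any (Nat.beq idP)) && L.all fun a => L.all fun b => L.any (Nat.beq (pcomp a b)))

/-- the elementary abelian group -/
theorem exists_elab (E : Emb φ me) {t0 : G} {c0 : ℕ} (ht0 : φ t0 = el c0) (hc0 : ok c0 = true) {L : List ℕ}
    (hL : okElab me c0 L = true) (hnd : L.Nodup) :
    ∃ B : Subgroup G, Nat.card B = L.length ∧ B ≤ centralizer ({t0} : Set G) ∧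
      ∀ x ∈ B, x * x = 1 ∧ ∃ P ∈ L, φ x = el P := by
  classical
  simp only [okElab, Bool.and_eq_true] at hL
  obtain ⟨h1, h2, h3⟩ := hL
  have hP : ∀ P ∈ L, ok P = true ∧ (me P = true ∧ (Nat.beq (pcomp P P) idP = true ∧ (Nat.beq (pcomp P idP) P = true ∧
      Nat.beq (pcomp P c0) (pcomp c0 P) = true))) := fun P hP => by
    have h := List.all_eq_true.1 h1 P hP
    simpa only [Bool.and_eq_true] using h
  have hid : idP ∈ L := by
    obtain ⟨P, hP, he⟩ := List.any_eq_true.1 h2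
    rw [Nat.eq_of_beq_eq_true he]
    exact hP
  have hsq : ∀ {x : G} {P : ℕ}, P ∈ L → φ x = el P → x * x = 1 := by
    intro x P hPL hx
    apply E.inj
    rw [map_mul, map_one, hx, ← el_pcomp (hP P hPL).1 (hP P hPL).1, Nat.eq_of_beq_eq_true (hP P hPL).2.2.1, el_idP]
  let B : Subgroup G :=
    { carrier := {x | ∃ P ∈ L, φ x = el P}
      one_mem' := ⟨idP, hid, by rw [map_one, el_idP]⟩
      mul_mem' := by
        rintro x y ⟨P, hPL, hx⟩ ⟨Q, hQL, hy⟩
        obtain ⟨R, hR, he⟩ := List.any_eq_true.1 (List.all_eq_true.1 (List.all_eq_true.1 h3 P hPL) Q hQL)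
        exact ⟨R, hR, by rw [map_mul, hx, hy, ← el_pcomp (hP P hPL).1 (hP Q hQL).1, Nat.eq_of_beq_eq_true he]⟩
      inv_mem' := by
        rintro x ⟨P, hPL, hx⟩
        have h4 : x⁻¹ = x := inv_eq_of_mul_eq_one_left (hsq hPL hx)
        exact ⟨P, hPL, by rw [h4, hx]⟩ }
  have hB : ∀ x, x ∈ B ↔ ∃ P ∈ L, φ x = el P := fun x => Iff.rfl
  refine ⟨B, ?_, ?_, fun x hx => ?_⟩
  · have hx : ∀ P : {P : ℕ // P ∈ L.toFinset}, ∃ x : G, φ x = el P.1 := fun P =>
      E.ex _ (hP P.1 (List.mem_toFinset.1 P.2)).1 (hP P.1 (List.mem_toFinset.1 P.2)).2.1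
    choose x hx using hx
    have hbij : Function.Bijective (fun P : {P : ℕ // P ∈ L.toFinset} =>
        (⟨x P, (hB _).2 ⟨P.1, List.mem_toFinset.1 P.2, hx P⟩⟩ : B)) := by
      constructor
      · intro P Q hPQ
        have h4 : x P = x Q := congrArg Subtype.val hPQ
        have h5 : el P.1 = el Q.1 := by rw [← hx, ← hx, h4]
        have hP' := hP P.1 (List.mem_toFinset.1 P.2)
        have hQ' := hP Q.1 (List.mem_toFinset.1 Q.2)
        exact Subtype.ext (el_inj hP'.1 hQ'.1 hP'.2.2.2.1 hQ'.2.2.2.1 h5)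
      · rintro ⟨y, hy⟩
        obtain ⟨P, hPL, hy'⟩ := (hB y).1 hy
        refine ⟨⟨P, List.mem_toFinset.2 hPL⟩, Subtype.ext ?_⟩
        apply E.inj
        show φ (x _) = φ y
        rw [hx, hy']
    rw [← Nat.card_eq_of_bijective _ hbij, Nat.card_eq_fintype_card, Fintype.card_coe,
      List.toFinset_card_of_nodup hnd]
  · intro x hx
    obtain ⟨P, hPL, hx'⟩ := (hB x).1 hx
    rw [mem_centralizer_singleton_iff]
    exact mul_comm_of E (hP P hPL).1 hc0 hx' ht0 (hP P hPL).2.2.2.2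
  · obtain ⟨P, hPL, hx'⟩ := (hB x).1 hx
    exact ⟨hsq hPL hx', P, hPL, hx'⟩

/-- **An elementary abelian group of `C(t)`.** -/
theorem elab_of [Finite G] [IsSimpleGroup G] (E : Emb φ me) {t0 : G} {c0 : ℕ} (ht0 : φ t0 = el c0) (hc0 : ok c0 = true)
    {L : List ℕ} (hL : okElab me c0 L = true) (hnd : L.Nodup)
    {A : Subgroup G} {Γ : Subgroup (MulAut G)} (h : IF A Γ) (hna : ∃ a b : G, a * b ≠ b * a) {t g : G} (ht : t ∈ A)
    (h2 : orderOf t = 2) (hg : g * t0 * g⁻¹ = t) :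
    ∃ (r : ℕ) (S : Finset G), r ≤ ff A t ∧ r * (S.card + 1) = L.length ∧
      ∀ s ∈ S, s ∈ A ∧ s * s = 1 ∧ s ≠ 1 ∧ ∃ P ∈ L, φ (g⁻¹ * s * g) = el P := by
  classical
  obtain ⟨B, hB1, hB2, hB3⟩ := exists_elab E ht0 hc0 hL hnd
  set B' : Subgroup G := B.map (MulAut.conj g).toMonoidHom with hB'
  have hcard : Nat.card B' = L.length := by
    rw [← hB1]
    exact (Nat.card_congr (B.equivMapOfInjective (MulAut.conj g).toMonoidHom (MulAut.conj g).injective).toEquiv).symm
  have hmem : ∀ {x : G}, x ∈ B' → g⁻¹ * x * g ∈ B := by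
    rintro _ ⟨y, hy, rfl⟩
    have h1 : g⁻¹ * ((MulAut.conj g).toMonoidHom y) * g = y := by
      show g⁻¹ * (g * y * g⁻¹) * g = y
      group
    rw [h1]
    exact hy
  have hle : B' ≤ centralizer ({t} : Set G) := by
    intro x hx
    have h1 := mem_centralizer_singleton_iff.1 (hB2 (hmem hx))
    rw [mem_centralizer_singleton_iff, ← hg]
    calc x * (g * t0 * g⁻¹) = g * (g⁻¹ * x * g * t0) * g⁻¹ := by group
      _ = g * (t0 * (g⁻¹ * x * g)) * g⁻¹ := by rw [h1]
      _ = _ := by group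
  have hr := relIndex_le h hna ht h2 hle
  have := Fintype.ofFinite G
  let S : Finset G := (Finset.univ.filter fun x : G => x ∈ A ∧ x ∈ B').erase 1
  have hS1 : (1 : G) ∈ Finset.univ.filter fun x : G => x ∈ A ∧ x ∈ B' := by
    rw [Finset.mem_filter]
    exact ⟨Finset.mem_univ _, A.one_mem, B'.one_mem⟩
  have hScard : S.card + 1 = Nat.card (A ⊓ B' : Subgroup G) := by
    rw [Finset.card_erase_add_one hS1, Nat.card_eq_fintype_card, Fintype.card_subtype]
    congr 1
    ext x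
    simp [Subgroup.mem_inf]
  refine ⟨A.relIndex B', S, hr, ?_, fun s hs => ?_⟩
  · rw [hScard, ← hcard]
    have h3 := (A.subgroupOf B').index_mul_card
    have h4 : Nat.card (A.subgroupOf B') = Nat.card (A ⊓ B' : Subgroup G) := by
      rw [← Subgroup.inf_subgroupOf_right A B']
      exact Nat.card_congr (subgroupOfEquivOfLe inf_le_right).toEquiv
    rw [← h4]
    exact h3
  · rw [Finset.mem_erase, Finset.mem_filter] at hs
    obtain ⟨hs1, -, hsA, hsB⟩ := hs
    obtain ⟨h3, h4⟩ := hB3 _ (hmem hsB)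
    refine ⟨hsA, ?_, hs1, h4⟩
    calc s * s = g * (g⁻¹ * s * g * (g⁻¹ * s * g)) * g⁻¹ := by group
      _ = 1 := by rw [h3]; group

end

end Cfsg.Agent.H399.IF
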