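import Cfsg.Agent.H399.IF.ONJ
import Cfsg.Agent.H680.ONThirtyOne
import Cfsg.Agent.H546.IF.OddBase
import Cfsg.Agent.CpAutON.Gen

/-!
# S5719: `ON`, `|A|` odd (helper399)

The outer involution `σ ∈ Γ` centralises `B ≅ J₁`; `f ≥ |B : A ∩ B|`, `d = |A ∩ B|` is odd, `f ^ 6 d < |ON|` gives `d = 21945`;
but there is no subgroup of order `21945 = 3 5 7 11 19` (Sylow, `p = 19`, `|C(y)| = 19`).
-/

set_option autoImplicit false
set_option linter.unusedSectionVars false

namespace Cfsg.Agent.H399.IF.ONJ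

open Cfsg Subgroup Cfsg.Agent.H209.Fxy
open Cfsg.Spor (ON)
open Cfsg.Agent.KFacts.ON.Cent (finite_ON)
open Cfsg.Agent.KFacts.ON.OneClass (card_ON)

/-- a finite simple group of composite order is not abelian -/
theorem na_of {G : Type*} [Group G] [Finite G] [IsSimpleGroup G] {N : ℕ} (hN : Nat.card G = N) (hp : ¬ N.Prime) :
    ∃ a b : G, a * b ≠ b * a := by
  by_contra hcon
  push Not at hcon
  let _ : CommGroup G := { ‹Group G› with mul_comm := hcon }
  exact hp (hN ▸ IsSimpleGroup.prime_card (α := G))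

theorem no_sub {D : Subgroup ON} (hD : Nat.card D = 21945) : False := by
  have hfin := finite_ON
  have hp : Fact (Nat.Prime 19) := ⟨by norm_num⟩
  obtain ⟨y, hy⟩ := exists_prime_orderOf_dvd_card' (G := D) 19 (by rw [hD]; norm_num)
  have hy' : orderOf (y : ON) = 19 := by rw [orderOf_coe, hy]
  have hC : Nat.card (centralizer ({y} : Set D)) = 19 := by
    apply Nat.dvd_antisymm
    · have h1 := H680.ONThirtyOne.card_cent_nineteen hy'
      rw [← h1]
      have h2 : (centralizer ({y} : Set D)).map D.subtype ≤ centralizer ({(y : ON)} : Set ON) := by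
        rintro _ ⟨x, hx, rfl⟩
        rw [SetLike.mem_coe, mem_centralizer_singleton_iff] at hx
        rw [mem_centralizer_singleton_iff]
        exact congrArg Subtype.val hx
      have h3 := Subgroup.card_dvd_of_le h2
      rwa [Nat.card_congr ((centralizer ({y} : Set D)).equivMapOfInjective D.subtype D.subtype_injective).toEquiv.symm] at h3
    · rw [← hy]
      exact Subgroup.orderOf_dvd_natCard _ (mem_centralizer_singleton_iff.2 rfl)
  obtain ⟨n, hn, hN⟩ := CpAutON.Gen.card_eq (G := D) (p := 19) (by rw [hD]; norm_num) hy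
  obtain ⟨m, hm⟩ : ∃ m, m = Nat.card ↥((zpowers y).normalizerMonoidHom).range := ⟨_, rfl⟩
  have hd : m ∣ 18 := by
    rw [hm]
    have h1 := Subgroup.card_subgroup_dvd_card ((zpowers y).normalizerMonoidHom).range
    rwa [CpAutON.Gen.card_mulAut (p := 19) hy] at h1
  rw [hC, hD, ← hm] at hN
  have hm18 : m ≤ 18 := Nat.le_of_dvd (by norm_num) hd
  interval_cases m <;> omega

/-- **`|A|` odd, `ON`** -/
theorem killO_ON : KillO ON := by
  intro A Γ h hodd
  have hfin := finite_ON
  have hs : IsSimpleGroup ON := Cfsg.Agent.H248.SK.ONOut.hON.1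
  have hna := na_of card_ON (by norm_num)
  obtain ⟨σ, hσ, h2, hout, ha3, -, -, hlt⟩ := Cfsg.Agent.H546.IFO.exists_outer hna h hodd
  have hσσ : σ * σ = 1 := by rw [← pow_two, ← h2, pow_orderOf_eq_one]
  obtain ⟨B, hB, -, hfix⟩ := exists_J hσσ hout
  have hE := (H999.IFB.IF.E1 h hσ h2 hfix).1
  have hmul : A.relIndex B * Nat.card (A ⊓ B : Subgroup ON) = 175560 := by
    rw [mul_comm, Subgroup.relIndex, ← hB, ← (A.subgroupOf B).card_mul_index]
    congr 1
    rw [← Subgroup.inf_subgroupOf_right A B]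
    exact (Nat.card_congr (Subgroup.subgroupOfEquivOfLe inf_le_right).toEquiv).symm
  have hdA : Nat.card (A ⊓ B : Subgroup ON) ∣ Nat.card A := Subgroup.card_dvd_of_le inf_le_left
  have hdo : Odd (Nat.card (A ⊓ B : Subgroup ON)) := hodd.of_dvd_nat hdA
  have hle : Nat.card (A ⊓ B : Subgroup ON) ≤ Nat.card A := Nat.le_of_dvd Nat.card_pos hdA
  have hne := no_sub (D := A ⊓ B)
  set d := Nat.card (A ⊓ B : Subgroup ON)
  set r := A.relIndex B
  have h8 : 8 ∣ r := by
    have h9 : Nat.Coprime 8 d := Nat.Coprime.pow_left 3 (Nat.coprime_two_left.2 hdo)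
    exact h9.dvd_of_dvd_mul_right (hmul ▸ (by norm_num))
  have hr : r ^ 5 * 175560 < 460815505920 := by
    rw [← card_ON, ← hmul]
    calc r ^ 5 * (r * d) = r ^ 6 * d := by ring
      _ ≤ fx A σ ^ 6 * Nat.card A := Nat.mul_le_mul (Nat.pow_le_pow_left hE 6) hle
      _ < _ := hlt
  have hr19 : r < 20 := by
    by_contra hcon
    have h9 : 20 ^ 5 ≤ r ^ 5 := Nat.pow_le_pow_left (by omega) 5
    omega
  obtain ⟨k, hk⟩ := h8
  obtain ⟨j, hj⟩ := hdo
  have hk2 : k < 3 := by omega
  interval_cases k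
  · rw [hk] at hmul
    omega
  · rw [hk] at hmul
    exact hne (by omega)
  · rw [hk] at hmul
    omega

end Cfsg.Agent.H399.IF.ONJ
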