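import Cfsg.Agent.H209.IF.Kill
import Cfsg.Agent.H999.IF.EngB
import Cfsg.Agent.H680.IF.EngA

/-!
# S5719: tools for the small sporadic rows (helper399)

* `kk A t` : number of `T`-conjugates of `t` in `A`; `cnt` : `f(t) |t^T| = n kk`;
* `mem_of_prime` : `t ∈ A` an involution, `g` commutes with `t`, `g ^ p = 1`, `f(t) < p`: `g ∈ A`.
-/

set_option autoImplicit false
set_option linter.unusedSectionVars false

namespace Cfsg.Agent.H399.IF

open MulAction Subgroup Cfsg.Agent.H209.Fxy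
open Cfsg.Agent.H999.IFB (icl center_of orderOf_conj)

variable {T : Type*} [Group T] [Finite T] {A : Subgroup T} {Γ : Subgroup (MulAut T)}

/-- number of the conjugates of `t` in `A` -/
noncomputable def kk (A : Subgroup T) (t : T) : ℕ := {s : T | s ∈ A ∧ IsConj t s}.ncard

/-- the fixity of `t` -/
noncomputable abbrev ff (A : Subgroup T) (t : T) : ℕ := fx A (MulAut.conj t)

theorem conj_injective [IsSimpleGroup T] (hna : ∃ a b : T, a * b ≠ b * a) :
    Function.Injective (MulAut.conj : T →* MulAut T) := by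
  rw [injective_iff_map_eq_one]
  intro z hz
  apply center_of hna
  intro x
  have h3 := congrArg (fun τ : MulAut T => τ x) hz
  simp only [MulAut.conj_apply, MulAut.one_apply] at h3
  rwa [mul_inv_eq_iff_eq_mul] at h3

/-- the fixed point formula inside `T` -/
theorem cnt [IsSimpleGroup T] (h : IF A Γ) (hna : ∃ a b : T, a * b ≠ b * a) {t : T} (ht : t ∈ A)
    (h2 : orderOf t = 2) : ff A t * (centralizer ({t} : Set T)).index = A.index * kk A t := by
  have hσ : MulAut.conj t ∈ Γ := (h.conj t).2 ht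
  have h1 := H999.IFB.IF.fix_formula' h hσ
  rw [(H999.IFB.IF.E2' h hna ht h2).2.1] at h1
  rw [h1]
  congr 1
  have h3 : (MulAut.conj : T →* MulAut T) '' {s : T | s ∈ A ∧ IsConj t s} = icl (MulAut.conj t) ∩ (Γ : Set (MulAut T)) := by
    ext τ
    constructor
    · rintro ⟨s, ⟨hs, hc⟩, rfl⟩
      obtain ⟨c, rfl⟩ := isConj_iff.1 hc
      exact ⟨⟨c, by rw [map_mul, map_mul, map_inv]⟩, (h.conj _).2 hs⟩
    · rintro ⟨⟨x, rfl⟩, hx⟩
      refine ⟨x * t * x⁻¹, ⟨?_, isConj_iff.2 ⟨x, rfl⟩⟩, by rw [map_mul, map_mul, map_inv]⟩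
      rw [← h.conj, map_mul, map_mul, map_inv]
      exact hx
  rw [← h3, Set.ncard_image_of_injective _ (conj_injective hna)]
  rfl

/-- `n > f^6` for an involution `t ∈ A` -/
theorem small [IsSimpleGroup T] (h : IF A Γ) (hna : ∃ a b : T, a * b ≠ b * a) {t : T} (ht : t ∈ A)
    (h2 : orderOf t = 2) : ff A t ^ 6 < A.index :=
  h.small _ ((h.conj t).2 ht) (by rw [orderOf_conj hna, h2])

/-- `f^5 < |t^T|` -/
theorem five [IsSimpleGroup T] (h : IF A Γ) (hna : ∃ a b : T, a * b ≠ b * a) {t : T} (ht : t ∈ A)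
    (h2 : orderOf t = 2) : ff A t ^ 5 < (centralizer ({t} : Set T)).index :=
  (H999.IFB.IF.E2' h hna ht h2).2.2.1

/-- a group centralized by `t` acts on the fixed points -/
theorem relIndex_le [IsSimpleGroup T] (h : IF A Γ) (hna : ∃ a b : T, a * b ≠ b * a) {t : T} (ht : t ∈ A)
    (h2 : orderOf t = 2) {B : Subgroup T} (hB : B ≤ centralizer ({t} : Set T)) : A.relIndex B ≤ ff A t := by
  refine (H999.IFB.IF.E1 h ((h.conj t).2 ht) (by rw [orderOf_conj hna, h2]) (B := B) fun b hb => ?_).1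
  have := Subgroup.mem_centralizer_singleton_iff.1 (hB hb)
  rw [MulAut.conj_apply, mul_inv_eq_iff_eq_mul]
  exact this.symm

/-- **an element of prime order `p > f(t)` commuting with `t` is in `A`** -/
theorem mem_of_prime [IsSimpleGroup T] (h : IF A Γ) (hna : ∃ a b : T, a * b ≠ b * a) {t : T} (ht : t ∈ A)
    (h2 : orderOf t = 2) {p : ℕ} (hp : p.Prime) (hf : ff A t < p) {g : T} (hg : g * t = t * g) (hgp : g ^ p = 1) :
    g ∈ A := by
  have h1 := relIndex_le h hna ht h2 (B := zpowers g) (by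
    rw [zpowers_le]
    exact mem_centralizer_singleton_iff.2 hg)
  have h3 : A.relIndex (zpowers g) ∣ p := by
    refine (relIndex_dvd_card A (zpowers g)).trans ?_
    rw [Nat.card_zpowers]
    exact orderOf_dvd_of_pow_eq_one hgp
  rcases (Nat.dvd_prime hp).1 h3 with h4 | h4
  · exact relIndex_eq_one.1 h4 (mem_zpowers g)
  · omega

/-- conjugates in `A` -/
theorem le_kk (A : Subgroup T) {t : T} (S : Finset T) (hS : ∀ s ∈ S, s ∈ A ∧ IsConj t s) : S.card ≤ kk A t := by
  rw [kk, ← Set.ncard_coe_finset S]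
  exact Set.ncard_le_ncard (fun s hs => hS s hs) (Set.toFinite _)

theorem one_le_kk {t : T} (ht : t ∈ A) : 1 ≤ kk A t := by
  have h := le_kk A (t := t) {t} (fun s hs => by
    rw [Finset.mem_singleton] at hs
    rw [hs]
    exact ⟨ht, IsConj.refl t⟩)
  simpa using h

theorem kk_congr {t s : T} (hc : IsConj t s) : kk A t = kk A s := by
  unfold kk
  congr 1
  ext x
  exact ⟨fun hx => ⟨hx.1, hc.symm.trans hx.2⟩, fun hx => ⟨hx.1, hc.trans hx.2⟩⟩

/-- all automorphisms inner: an involution in `A` with at least three fixed points -/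
theorem exists_three [IsSimpleGroup T] (h : IF A Γ) (hna : ∃ a b : T, a * b ≠ b * a)
    (hin : ∀ σ : MulAut T, ∃ g : T, σ = MulAut.conj g) : ∃ t ∈ A, orderOf t = 2 ∧ 3 ≤ ff A t := by
  obtain ⟨σ, hσ, h2, h3⟩ := h.ex
  obtain ⟨g, rfl⟩ := hin σ
  exact ⟨g, (h.conj g).1 hσ, by rwa [orderOf_conj hna] at h2, h3⟩

theorem hna_of (hT : ¬ IsMulCommutative T) : ∃ a b : T, a * b ≠ b * a := by
  by_contra hcon
  push Not at hcon
  exact hT ⟨⟨hcon⟩⟩

/-- the index of a centralizer -/
theorem index_eq {t : T} {N c m : ℕ} (hN : Nat.card T = N) (hc : Nat.card (centralizer ({t} : Set T)) = c)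
    (hm : c * m = N) (hc0 : 0 < c) : (centralizer ({t} : Set T)).index = m := by
  have h1 := (centralizer ({t} : Set T)).card_mul_index
  rw [hN, hc, ← hm] at h1
  exact Nat.eq_of_mul_eq_mul_left hc0 h1

end Cfsg.Agent.H399.IF
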